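import Mathlib
import Cfsg.Agent.Lib.Helper35.JR.Defs
import Cfsg.Agent.Lib.Helper43.AutPSL2.Main

/-!
# Project JR (S3206), package [KEY0]

An automorphism of `PSL₂(F)` of 2-power order fixing the images of `A` and `B` is conjugation
by an element of the four-group `V₀`, when `Aut(F)` has no nontrivial 2-elements.
-/

set_option autoImplicit false

namespace Cfsg.Agent.Lib.Helper2.JR

open Matrix Cfsg.Agent.Lib.Helper35.JR Cfsg.Agent.Lib.Helper43.AutPSL2

universe u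

section

variable {F : Type u} [Field F]

local notation "M₂" => Matrix (Fin 2) (Fin 2) F
local notation "SL₂" => Matrix.SpecialLinearGroup (Fin 2) F
local notation "PSL₂" => Matrix.ProjectiveSpecialLinearGroup (Fin 2) F

/-- The diagonal matrix `diag(c, 1)`. -/
def key0DMat (c : Fˣ) : M₂ := !![(c : F), 0; 0, 1]

theorem key0_dFun_mul_dMat (c : Fˣ) (M : SL₂) :
    (dFun c M : M₂) * key0DMat c = key0DMat c * (M : M₂) := by
  have hc : (c : F)⁻¹ * (c : F) = 1 := inv_mul_cancel₀ c.ne_zero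
  ext i j
  fin_cases i <;> fin_cases j
  · simp [key0DMat, Matrix.mul_apply, Fin.sum_univ_two, mul_comm]
  · simp [key0DMat, Matrix.mul_apply, Fin.sum_univ_two]
  · simp [key0DMat, Matrix.mul_apply, Fin.sum_univ_two]
    rw [mul_right_comm, hc, one_mul]
  · simp [key0DMat, Matrix.mul_apply, Fin.sum_univ_two]

theorem key0_intertwine (Gm : SL₂) (c : Fˣ) (M : SL₂) :
    ((Gm * dFun c M * Gm⁻¹ : SL₂) : M₂) * ((Gm : M₂) * key0DMat c) =
      ((Gm : M₂) * key0DMat c) * (M : M₂) := by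
  have e : ((Gm * dFun c M * Gm⁻¹ : SL₂) : M₂) * (Gm : M₂) = (Gm : M₂) * (dFun c M : M₂) := by
    rw [← Matrix.SpecialLinearGroup.coe_mul, ← Matrix.SpecialLinearGroup.coe_mul,
      inv_mul_cancel_right]
  rw [← Matrix.mul_assoc, e, Matrix.mul_assoc, key0_dFun_mul_dMat, ← Matrix.mul_assoc]

theorem key0_conj_of_smul (α : PSL₂ ≃* PSL₂) (Gm : SL₂) (c : Fˣ)
    (hform : ∀ M : SL₂, α (pm M) = pm (Gm * dFun c M * Gm⁻¹))
    (Xs : SL₂) (c' : F) (hc' : c' ≠ 0) (hH : (Gm : M₂) * key0DMat c = c' • (Xs : M₂)) :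
    ∀ x, α x = pm Xs * x * (pm Xs)⁻¹ := by
  intro x
  obtain ⟨M, rfl⟩ := pm_surjective x
  rw [hform, ← map_inv, ← map_mul, ← map_mul]
  refine congrArg pm ?_
  rw [eq_mul_inv_iff_mul_eq]
  apply Subtype.ext
  rw [Matrix.SpecialLinearGroup.coe_mul (Gm * dFun c M * Gm⁻¹) Xs,
    Matrix.SpecialLinearGroup.coe_mul Xs M]
  have e := key0_intertwine Gm c M
  rw [hH, Matrix.mul_smul, Matrix.smul_mul] at e
  exact smul_right_injective _ hc' e

end

/-- **[KEY0]**. -/
theorem pkgKey0 (hV0 : PkgV0.{u}) : PkgKey0.{u} := by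
  intro F _ _ h2 a b h hσ α k hαk hA hB
  obtain ⟨p, _, n, hp, hcard⟩ := FiniteField.card' F
  have : Fact p.Prime := ⟨hp⟩
  have hf : 1 ≤ (n : ℕ) := n.pos
  obtain ⟨g, c, σ, hα⟩ := aut_structure hf hcard α
  have htw : Tw α (1 * 1 * σ) := by
    rw [hα]
    exact tw_mul (tw_mul (tw_conj g) (tw_dAut c)) (tw_fAut σ)
  have hσ1 : σ = 1 := by
    have e1 : twHom hf hcard α = σ := by
      have := twHom_eq hf hcard htw
      simpa using this
    apply hσ σ k
    rw [← e1, ← map_pow, hαk, map_one]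
  subst hσ1
  obtain ⟨Gm, rfl⟩ := pm_surjective g
  have hform : ∀ M : Matrix.SpecialLinearGroup (Fin 2) F,
      α (pm M) = pm (Gm * dFun c M * Gm⁻¹) := by
    intro M
    rw [hα]
    show pm Gm * (pslAut (dAut c) (pslAut (fAut 1) (pm M))) * (pm Gm)⁻¹ = _
    rw [fAut_one, map_one, MulAut.one_apply, pslAut_pm, dAut_apply, ← map_inv, ← map_mul,
      ← map_mul]
  have key : ∀ (X : Matrix.SpecialLinearGroup (Fin 2) F), α (pm X) = pm X →
      ((Gm : Matrix (Fin 2) (Fin 2) F) * key0DMat c) * (X : Matrix (Fin 2) (Fin 2) F) =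
        (X : Matrix (Fin 2) (Fin 2) F) * ((Gm : Matrix (Fin 2) (Fin 2) F) * key0DMat c) ∨
      ((Gm : Matrix (Fin 2) (Fin 2) F) * key0DMat c) * (X : Matrix (Fin 2) (Fin 2) F) =
        -((X : Matrix (Fin 2) (Fin 2) F) * ((Gm : Matrix (Fin 2) (Fin 2) F) * key0DMat c)) := by
    intro X hX
    rw [hform] at hX
    have e := key0_intertwine Gm c X
    rcases (pm_eq_iff _ _).mp hX with h1 | h1
    · left; rw [← e, h1]
    · right; rw [← e, h1, Matrix.neg_mul]
  have hHA := key (elA F) hA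
  have hHB := key (elB a b h) hB
  have hdet : ((Gm : Matrix (Fin 2) (Fin 2) F) * key0DMat c).det ≠ 0 := by
    rw [Matrix.det_mul, Matrix.SpecialLinearGroup.det_coe, one_mul]
    simp [key0DMat, Matrix.det_fin_two]
  have hc0 : ∀ (c' : F) (X : Matrix (Fin 2) (Fin 2) F),
      (Gm : Matrix (Fin 2) (Fin 2) F) * key0DMat c = c' • X → c' ≠ 0 := by
    intro c' X hX hc
    rw [hc, zero_smul] at hX
    rw [hX, Matrix.det_zero] at hdet
    exact hdet rfl
  obtain ⟨c', h1 | h1 | h1 | h1⟩ := hV0 F h2 a b h _ hHA hHB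
  · refine ⟨pm 1, ?_, key0_conj_of_smul α Gm c hform 1 c' (hc0 c' _ h1) ?_⟩
    · rw [map_one]; exact Or.inl rfl
    · rw [Matrix.SpecialLinearGroup.coe_one]; exact h1
  · exact ⟨pm (elA F), Or.inr (Or.inl rfl),
      key0_conj_of_smul α Gm c hform (elA F) c' (hc0 c' _ h1) h1⟩
  · exact ⟨pm (elB a b h), Or.inr (Or.inr (Or.inl rfl)),
      key0_conj_of_smul α Gm c hform (elB a b h) c' (hc0 c' _ h1) h1⟩
  · refine ⟨pm (elA F * elB a b h), ?_,
      key0_conj_of_smul α Gm c hform (elA F * elB a b h) c' (hc0 c' _ h1) ?_⟩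
    · rw [map_mul]; exact Or.inr (Or.inr (Or.inr rfl))
    · rw [Matrix.SpecialLinearGroup.coe_mul]; exact h1

end Cfsg.Agent.Lib.Helper2.JR
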